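import Mathlib
import Cfsg.Agent.Lib.AutSL2
import Cfsg.Agent.ClassicalGeometry.PSL2Basic

/-!
# The automizer of a Sylow `p`-subgroup of `PSL(2, q)` in characteristic `p` (helper571)
-/

set_option autoImplicit false

namespace Cfsg.Agent.H571.AbSylPsl

open Subgroup Cfsg.Agent.Lib.SL2Mat

/-- `q - 1` divides `2 |N(P) : C(P)|`. -/
theorem sub_one_dvd {p : ℕ} [hp : Fact p.Prime] {F : Type*} [Field F] [Fintype F] [CharP F p]
    {K : Type*} [Group K] [Finite K] (e : K ≃* Matrix.ProjectiveSpecialLinearGroup (Fin 2) F)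
    (P : Sylow p K) :
    Fintype.card F - 1 ∣ 2 * (centralizer ((P : Subgroup K) : Set K)).relIndex
      (normalizer ((P : Subgroup K) : Set K)) := by
  let π : Matrix.SpecialLinearGroup (Fin 2) F →* Matrix.ProjectiveSpecialLinearGroup (Fin 2) F :=
    QuotientGroup.mk' _
  have hπs : Function.Surjective π := QuotientGroup.mk'_surjective _
  have hπk : ∀ x, π x = 1 ↔ x ∈ Subgroup.center (Matrix.SpecialLinearGroup (Fin 2) F) := fun x =>
    QuotientGroup.eq_one_iff x
  let P' : Sylow p (Matrix.ProjectiveSpecialLinearGroup (Fin 2) F) :=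
    P.mapSurjective (f := e.toMonoidHom) e.surjective
  have hP' : ∀ x : K, x ∈ (P : Subgroup K) ↔ e x ∈ P' := by
    intro x
    constructor
    · intro hx
      exact ⟨x, hx, rfl⟩
    · rintro ⟨y, hy, hyx⟩
      have : y = x := e.injective hyx
      rwa [← this]
  obtain ⟨g, hg⟩ := MulAction.exists_smul_eq (Matrix.ProjectiveSpecialLinearGroup (Fin 2) F)
    ((Cfsg.Agent.Lib.AutSL2.sylU F p).mapSurjective hπs) P'
  have hmem : ∀ x : Matrix.ProjectiveSpecialLinearGroup (Fin 2) F, x ∈ P' ↔
      ∃ c : F, π (up c) = g⁻¹ * x * g := by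
    intro x
    rw [← hg, Cfsg.Agent.Lib.AutSL2.mem_smul_sylow]
    constructor
    · rintro ⟨y, ⟨c, rfl⟩, hy⟩
      exact ⟨c, hy⟩
    · rintro ⟨c, hc⟩
      exact ⟨up c, ⟨c, rfl⟩, hc⟩
  let D : Fˣ →* Matrix.SpecialLinearGroup (Fin 2) F :=
    { toFun := fun b => dg (b : F) b.ne_zero
      map_one' := by
        apply ext_ent <;> simp
      map_mul' := by
        intro a b
        apply ext_ent <;>
          simp [ent_mul, mul_comm] }
  let f : Fˣ →* K := e.symm.toMonoidHom.comp ((MulAut.conj g).toMonoidHom.comp (π.comp D))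
  have hfe : ∀ b : Fˣ, e (f b) = g * π (D b) * g⁻¹ := fun b => e.apply_symm_apply _
  have hDup : ∀ (b : Fˣ) (c : F), D b * up c = up ((b : F) ^ 2 * c) * D b := fun b c =>
    dg_up (b : F) c b.ne_zero
  have hconj : ∀ b : Fˣ, ∀ x ∈ (P : Subgroup K), f b * x * (f b)⁻¹ ∈ (P : Subgroup K) := by
    intro b x hx
    rw [hP', hmem] at hx ⊢
    obtain ⟨c, hc⟩ := hx
    rw [map_mul, map_mul, map_inv, hfe]
    refine ⟨(b : F) ^ 2 * c, ?_⟩
    have h1 : g⁻¹ * (g * π (D b) * g⁻¹ * e x * (g * π (D b) * g⁻¹)⁻¹) * g =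
        π (D b) * (g⁻¹ * e x * g) * (π (D b))⁻¹ := by group
    rw [h1, ← hc, ← map_mul, hDup, map_mul, mul_inv_cancel_right]
  have hnorm : ∀ b : Fˣ, f b ∈ normalizer ((P : Subgroup K) : Set K) := by
    intro b
    rw [mem_normalizer_iff]
    intro x
    constructor
    · intro hx
      exact hconj b x hx
    · intro hx
      have h1 := hconj b⁻¹ _ hx
      rw [map_inv] at h1
      have h2 : (f b)⁻¹ * (f b * x * (f b)⁻¹) * (f b)⁻¹⁻¹ = x := by group
      rwa [h2] at h1
  set N := normalizer ((P : Subgroup K) : Set K) with hN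
  set C := centralizer ((P : Subgroup K) : Set K) with hC
  have hnor : (C.subgroupOf N).Normal := by
    rw [hC, hN]
    infer_instance
  have key : ∀ b : Fˣ, b ^ (2 * C.relIndex N) = 1 := by
    intro b
    have h1 : (f b) ^ (C.relIndex N) ∈ C :=
      Subgroup.pow_index_mem (C.subgroupOf N) (⟨f b, hnorm b⟩ : N)
    rw [← map_pow] at h1
    set a := b ^ (C.relIndex N) with ha
    let u : K := e.symm (g * π (up 1) * g⁻¹)
    have heu : e u = g * π (up 1) * g⁻¹ := e.apply_symm_apply _
    have hu : u ∈ (P : Subgroup K) := by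
      rw [hP', hmem]
      exact ⟨1, by rw [heu]; group⟩
    have h2 := mem_centralizer_iff.1 h1 u hu
    have h3 := congrArg (fun x => g⁻¹ * e x * g) h2
    simp only [map_mul, hfe, heu] at h3
    have h4 : π (up 1) * π (D a) = π (D a) * π (up 1) := by
      have e1 : g⁻¹ * (g * π (up 1) * g⁻¹ * (g * π (D a) * g⁻¹)) * g = π (up 1) * π (D a) := by group
      have e2 : g⁻¹ * (g * π (D a) * g⁻¹ * (g * π (up 1) * g⁻¹)) * g = π (D a) * π (up 1) := by group
      rw [e1, e2] at h3
      exact h3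
    rw [← map_mul, ← map_mul, hDup, map_mul, map_mul] at h4
    have h5 := mul_right_cancel h4
    have h6 : π ((up (1 : F))⁻¹ * up ((a : F) ^ 2 * 1)) = 1 := by
      rw [map_mul, map_inv, h5, inv_mul_cancel]
    rw [hπk, up_inv, up_mul] at h6
    have h6' := (mem_center_offdiag h6).1
    rw [up_01] at h6'
    have h7 : (a : F) ^ 2 = 1 := by linear_combination h6'
    have h8 : a ^ 2 = 1 := Units.ext (by push_cast; exact h7)
    rw [mul_comm 2, pow_mul, ← ha]
    exact h8
  have hcyc : IsCyclic Fˣ := inferInstance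
  obtain ⟨z, hz⟩ := hcyc.exists_generator
  have h1 : orderOf z = Fintype.card F - 1 := by
    classical
    rw [orderOf_eq_card_of_forall_mem_zpowers hz, Nat.card_eq_fintype_card, Fintype.card_units]
  rw [← h1]
  exact orderOf_dvd_of_pow_eq_one (key z)

/-- If `|N(P) : C(P)|` is a prime `r` and `p` is odd then `p = 3` or `P` is cyclic. -/
theorem eq_three_or_cyclic {p : ℕ} [hp : Fact p.Prime] (hp2 : p ≠ 2) {F : Type*} [Field F] [Fintype F]
    [CharP F p] {K : Type*} [Group K] [Finite K]
    (e : K ≃* Matrix.ProjectiveSpecialLinearGroup (Fin 2) F) (P : Sylow p K)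
    (hr : ((centralizer ((P : Subgroup K) : Set K)).relIndex
      (normalizer ((P : Subgroup K) : Set K))).Prime) : p = 3 ∨ IsCyclic (P : Subgroup K) := by
  have h1 := sub_one_dvd e P
  set r := (centralizer ((P : Subgroup K) : Set K)).relIndex (normalizer ((P : Subgroup K) : Set K)) with hrd
  obtain ⟨f, -, hq⟩ := FiniteField.card F p
  set q := Fintype.card F with hqd
  have hodd : Odd q := by
    rw [hq]
    exact (hp.out.odd_of_ne_two hp2).pow
  obtain ⟨m, hm⟩ := hodd
  have h2 : m ∣ r := by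
    have : 2 * m ∣ 2 * r := by
      have e1 : q - 1 = 2 * m := by omega
      rwa [e1] at h1
    exact Nat.dvd_of_mul_dvd_mul_left (by norm_num) this
  have hq1 : 1 < q := Fintype.one_lt_card
  -- `p - 1 = 2 k`, `k ∣ m`
  obtain ⟨k, hk⟩ := hp.out.odd_of_ne_two hp2
  have h3 : k ∣ m := by
    have h4 : p - 1 ∣ p ^ (f : ℕ) - 1 := by
      simpa using Nat.sub_dvd_pow_sub_pow p 1 (f : ℕ)
    rw [← hq] at h4
    have e1 : q - 1 = 2 * m := by omega
    have e2 : p - 1 = 2 * k := by omega
    rw [e1, e2] at h4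
    exact Nat.dvd_of_mul_dvd_mul_left (by norm_num) h4
  rcases (Nat.dvd_prime hr).1 (h3.trans h2) with h4 | h4
  · left; omega
  · -- `k = r`, so `m = r`, `q = p`
    have hm2 : m = r := Nat.dvd_antisymm h2 (h4 ▸ h3)
    have hqp : q = p := by omega
    right
    have hodd' : Odd q := ⟨m, hm⟩
    have hc := Cfsg.Agent.ClassicalGeometry.PSL2Basic.card_PSL2_odd F hodd'
    rw [← Nat.card_congr e.toEquiv] at hc
    have hcard : Nat.card (P : Subgroup K) = p ∨ Nat.card (P : Subgroup K) = 1 := by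
      have h5 : ¬ p ^ 2 ∣ Nat.card K := by
        intro h6
        have h7 : p ^ 2 ∣ p * ((p - 1) * (p + 1)) := by
          refine h6.trans (Dvd.intro 2 ?_)
          rw [hc, ← hqd, hqp]
          have h8 : 1 ≤ p ^ 2 := Nat.one_le_pow _ _ hp.out.pos
          have h9 : 1 ≤ p := hp.out.one_le
          zify [h8, h9]
          ring
        rw [pow_two] at h7
        have h8 := Nat.dvd_of_mul_dvd_mul_left hp.out.pos h7
        rcases (hp.out.dvd_mul).1 h8 with h9 | h9
        · have := Nat.le_of_dvd (by omega) h9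
          omega
        · have h10 : p ∣ 1 := (Nat.dvd_add_right (dvd_refl p)).1 h9
          exact hp.out.one_lt.ne' (Nat.dvd_one.1 h10)
      obtain ⟨n, hn⟩ := IsPGroup.iff_card.1 P.isPGroup'
      have h6 : p ^ n ∣ Nat.card K := hn ▸ (P : Subgroup K).card_subgroup_dvd_card
      rcases n with _ | _ | n
      · right; rw [hn, pow_zero]
      · left; rw [hn, zero_add, pow_one]
      · exact absurd ((pow_dvd_pow p (by omega)).trans h6) h5
    rcases hcard with h5 | h5
    · exact isCyclic_of_prime_card h5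
    · have := (Nat.card_eq_one_iff_unique.1 h5).1
      exact isCyclic_of_subsingleton

end Cfsg.Agent.H571.AbSylPsl
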