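import Mathlib
import Cfsg.Agent.H571.SylowNumber
import Cfsg.Agent.Lib.SolvableNormalP

/-!
# Prime parts of Sylow numbers of solvable groups
-/

set_option autoImplicit false

namespace Cfsg.Agent.H571.SylowParts

open Cfsg.Agent.H571.SylowNumber

/-- Every prime part of `n` is `≡ 1` mod `p`. -/
def Good (p n : ℕ) : Prop := ∀ l : ℕ, l.Prime → l ^ n.factorization l ≡ 1 [MOD p]

theorem Good.one (p : ℕ) : Good p 1 := by
  intro l _
  simp [Nat.ModEq.refl]

theorem Good.mul {p m n : ℕ} (hm : Good p m) (hn : Good p n) (hm0 : m ≠ 0) (hn0 : n ≠ 0) :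
    Good p (m * n) := by
  intro l hl
  rw [Nat.factorization_mul hm0 hn0, Finsupp.add_apply, pow_add]
  simpa using (hm l hl).mul (hn l hl)

theorem Good.prime_pow {p q k : ℕ} (hq : q.Prime) (h : q ^ k ≡ 1 [MOD p]) : Good p (q ^ k) := by
  intro l hl
  by_cases hlq : l = q
  · subst hlq
    rw [hl.factorization_pow, Finsupp.single_eq_same]
    exact h
  · rw [hq.factorization_pow, Finsupp.single_eq_of_ne hlq, pow_zero]

/-- `n_p(PN)` is a `q`-power if `N` is a normal `q`-subgroup. -/
theorem good_sup {G : Type*} [Group G] [Finite G] {p q : ℕ} [hp : Fact p.Prime] (hq : q.Prime)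
    (P : Sylow p G) (N : Subgroup G) [N.Normal] (hN : IsPGroup q N) :
    Good p (Nat.card (Sylow p ((P : Subgroup G) ⊔ N : Subgroup G))) := by
  have hFq : Fact q.Prime := ⟨hq⟩
  have h1 := card_sylow_eq_relIndex P ((P : Subgroup G) ⊔ N) le_sup_left
  have h2 : (Subgroup.normalizer ((P : Subgroup G) : Set G)).relIndex ((P : Subgroup G) ⊔ N) ∣
      (P : Subgroup G).relIndex ((P : Subgroup G) ⊔ N) :=
    Subgroup.relIndex_dvd_of_le_left _ Subgroup.le_normalizer
  rw [relIndex_sup_of_normal] at h2
  have h3 : (P : Subgroup G).relIndex N ∣ Nat.card N := Subgroup.relIndex_dvd_card _ _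
  obtain ⟨n, hn⟩ := IsPGroup.iff_card.1 hN
  rw [hn] at h3
  rw [← h1] at h2
  obtain ⟨k, -, hk⟩ := (Nat.dvd_prime_pow hq).1 (h2.trans h3)
  rw [hk]
  apply Good.prime_pow hq
  rw [← hk]
  exact card_sylow_modEq_one p _

universe u in
/-- In a solvable group the prime parts of `n_p` are `≡ 1` mod `p`. -/
theorem good_of_isSolvable (p : ℕ) [hp : Fact p.Prime] :
    ∀ (n : ℕ) (G : Type u) [Group G] [Finite G] [Group.IsSolvable G], Nat.card G = n →
      Good p (Nat.card (Sylow p G)) := by
  intro n
  induction n using Nat.strong_induction_on with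
  | _ n ih =>
    intro G _ _ _ hn
    rcases subsingleton_or_nontrivial G with hG | hG
    · have h1 : Nat.card (Sylow p G) = 1 := by
        have : Subsingleton (Sylow p G) :=
          ⟨fun P Q => Sylow.ext (Subsingleton.elim _ _)⟩
        rw [Nat.card_eq_one_iff_unique]
        exact ⟨this, inferInstance⟩
      rw [h1]
      exact Good.one p
    · obtain ⟨q, N, hq, hNn, hNq, -, hN1⟩ := Lib.SolvableNormalP.exists_normal_pSubgroup G
      obtain ⟨P⟩ : Nonempty (Sylow p G) := inferInstance
      rw [card_sylow_eq_mul P N]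
      have hcard : Nat.card (G ⧸ N) < n := by
        rw [← hn]
        have h2 := N.card_eq_card_quotient_mul_card_subgroup
        have h3 : 1 < Nat.card N := by
          have : Nat.card N ≠ 1 := fun h => hN1 (Subgroup.card_eq_one.1 h)
          have := Nat.card_pos (α := N)
          omega
        have h4 : 0 < Nat.card (G ⧸ N) := Nat.card_pos
        rw [h2]
        nlinarith
      refine Good.mul (ih _ hcard (G ⧸ N) rfl) (good_sup hq P N hNq) ?_ ?_
      · exact Nat.card_pos.ne'
      · exact Nat.card_pos.ne'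

end Cfsg.Agent.H571.SylowParts
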