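import Mathlib
import Cfsg.Agent.H571.TwentyTwoA
import Cfsg.Agent.SmallSimple.PrimeLocal
import Cfsg.Agent.WeakTI.SylCent
import Cfsg.Agent.S4343

/-!
# No simple group has exactly 22 Sylow 3-subgroups
-/

set_option autoImplicit false

namespace Cfsg.Agent.H571.TwentyTwo

open Subgroup MulAction
open scoped Pointwise
open Cfsg.Agent.SmallSimple.PrimeLocal

variable {G : Type*} [Group G] [Finite G]

theorem card_eq_three [IsSimpleGroup G] (hG : ¬ IsMulCommutative G)
    (hn : Nat.card (Sylow 3 G) = 22) (P : Sylow 3 G) : Nat.card (P : Subgroup G) = 3 := by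
  have hO : ⨅ R : Sylow 3 G, (R : Subgroup G) = ⊥ := by
    rcases (S4343.iInf_sylow_normal (S := G) 3).eq_bot_or_eq_top with h3 | h3
    · exact h3
    · exfalso
      apply hG
      apply S4343.isMulCommutative_of_simple_pGroup 3
      have h4 : (P : Subgroup G) = ⊤ := top_unique (h3 ▸ iInf_le _ P)
      have h5 := P.isPGroup'
      rw [h4] at h5
      exact h5.of_equiv Subgroup.topEquiv
  have h1 := SmallSylow.card_dvd_of_relIndex_dvd (relIndex_dvd hn) hO P
  rcases (Nat.dvd_prime (by norm_num : Nat.Prime 3)).1 h1 with h2 | h2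
  · exfalso
    have h3 : (P : Subgroup G) = ⊥ := Subgroup.card_eq_one.1 h2
    have h4 : Subsingleton (Sylow 3 G) := by
      refine ⟨fun Q R => ?_⟩
      have h5 : ∀ Q : Sylow 3 G, (Q : Subgroup G) = ⊥ := by
        intro Q
        apply Subgroup.card_eq_one.1
        rw [Q.card_eq_multiplicity, ← P.card_eq_multiplicity, h2]
      exact Sylow.ext ((h5 Q).trans (h5 R).symm)
    have h5 : Nat.card (Sylow 3 G) = 1 := Nat.card_eq_one_iff_unique.2 ⟨h4, ⟨P⟩⟩
    rw [hn] at h5
    norm_num at h5
  · exact h2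

/-- An element acting trivially is `1`. -/
theorem eq_one_of_smul [IsSimpleGroup G] (hn : Nat.card (Sylow 3 G) = 22) (g : G)
    (hg : ∀ Q : Sylow 3 G, g • Q = Q) : g = 1 := by
  have h1 : (toPermHom G (Sylow 3 G)).ker = ⊥ := by
    rcases (inferInstance : (toPermHom G (Sylow 3 G)).ker.Normal).eq_bot_or_eq_top with h | h
    · exact h
    · exfalso
      obtain ⟨P⟩ : Nonempty (Sylow 3 G) := inferInstance
      have h2 : Subsingleton (Sylow 3 G) := by
        refine ⟨fun Q R => ?_⟩
        obtain ⟨g, rfl⟩ := exists_smul_eq G Q R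
        have h3 : g ∈ (toPermHom G (Sylow 3 G)).ker := h ▸ mem_top g
        have h4 := congrArg (fun f : Equiv.Perm (Sylow 3 G) => f Q) (MonoidHom.mem_ker.1 h3)
        exact h4.symm
      have h5 : Nat.card (Sylow 3 G) = 1 := Nat.card_eq_one_iff_unique.2 ⟨h2, ⟨P⟩⟩
      rw [hn] at h5
      norm_num at h5
  have h2 : g ∈ (toPermHom G (Sylow 3 G)).ker := by
    rw [MonoidHom.mem_ker]
    ext1 Q
    exact hg Q
  rw [h1, mem_bot] at h2
  exact h2

/-- `22 * 21` divides `|G|`. -/
theorem dvd_card (hn : Nat.card (Sylow 3 G) = 22) : 22 * 21 ∣ Nat.card G := by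
  classical
  obtain ⟨P⟩ : Nonempty (Sylow 3 G) := inferInstance
  have hnt : Nontrivial (Sylow 3 G) := by
    rw [← Finite.one_lt_card_iff_nontrivial, hn]
    norm_num
  obtain ⟨Q, hQ⟩ := exists_ne P
  -- `G` acts transitively on ordered pairs of distinct points
  have h1 : Nat.card (orbit G (P, Q)) = 22 * 21 := by
    have h2 : orbit G (P, Q) = {x : Sylow 3 G × Sylow 3 G | x.1 ≠ x.2} := by
      ext ⟨R, S⟩
      constructor
      · rintro ⟨g, hg⟩
        have h3 : g • P = R := congrArg Prod.fst hg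
        have h4 : g • Q = S := congrArg Prod.snd hg
        show R ≠ S
        rw [← h3, ← h4]
        intro h5
        exact hQ (smul_left_cancel g h5).symm
      · intro h
        obtain ⟨g, h3, h4⟩ := two_transitive hn (Ne.symm hQ) h
        exact ⟨g, Prod.ext h3 h4⟩
    rw [h2]
    have hfin : Fintype (Sylow 3 G) := Fintype.ofFinite _
    rw [Nat.card_coe_set_eq, Set.ncard_eq_toFinset_card']
    have h3 : ({x : Sylow 3 G × Sylow 3 G | x.1 ≠ x.2} : Set _).toFinset =
        (Finset.univ : Finset (Sylow 3 G)).offDiag := by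
      ext ⟨R, S⟩
      simp
    rw [h3, Finset.offDiag_card, Finset.card_univ, ← Nat.card_eq_fintype_card, hn]
  rw [← h1]
  have h2 := (stabilizer G (P, Q)).card_mul_index
  have h3 : (orbit G (P, Q)).ncard = (stabilizer G (P, Q)).index :=
    (index_stabilizer G (P, Q)).symm
  rw [Nat.card_coe_set_eq, h3]
  exact Dvd.intro_left _ h2

/-- A nontrivial element of a Sylow 3-subgroup fixes only this Sylow 3-subgroup. -/
theorem eq_of_smul_eq (P : Sylow 3 G) (hP : Nat.card (P : Subgroup G) = 3) {x : G} (hx : x ∈ P)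
    (hx1 : x ≠ 1) (Q : Sylow 3 G) (h : x • Q = Q) : P = Q := by
  have h1 : x ∈ normalizer ((Q : Subgroup G) : Set G) := Sylow.smul_eq_iff_mem_normalizer.1 h
  have h2 : (P : Subgroup G) ≤ normalizer ((Q : Subgroup G) : Set G) := by
    have h3 : zpowers x = (P : Subgroup G) := by
      apply eq_of_le_of_card_ge (zpowers_le.2 hx)
      rw [hP, Nat.card_zpowers]
      have h4 : orderOf x ∣ 3 := by
        have := orderOf_dvd_natCard (⟨x, hx⟩ : (P : Subgroup G))
        rwa [Subgroup.orderOf_mk, hP] at this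
      rcases (Nat.dvd_prime (by norm_num : Nat.Prime 3)).1 h4 with h5 | h5
      · exact absurd (orderOf_eq_one_iff.1 h5) hx1
      · exact h5.ge
    rw [← h3]
    exact zpowers_le.2 h1
  have h4 : (P : Subgroup G) ⊓ normalizer ((Q : Subgroup G) : Set G) = (P : Subgroup G) ⊓ Q :=
    IsPGroup.inf_normalizer_sylow P.isPGroup' Q
  rw [inf_eq_left.2 h2] at h4
  have h5 : (P : Subgroup G) ≤ Q := by
    rw [h4]
    exact inf_le_right
  exact Sylow.ext (P.is_maximal' Q.isPGroup' h5).symm

/-- `P` fixes exactly one Sylow 3-subgroup. -/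
theorem fixed_unique (P : Sylow 3 G) (Q : Sylow 3 G) (h : ∀ x ∈ P, x • Q = Q) : P = Q := by
  have h2 : (P : Subgroup G) ≤ normalizer ((Q : Subgroup G) : Set G) :=
    fun x hx => Sylow.smul_eq_iff_mem_normalizer.1 (h x hx)
  have h4 : (P : Subgroup G) ⊓ normalizer ((Q : Subgroup G) : Set G) = (P : Subgroup G) ⊓ Q :=
    IsPGroup.inf_normalizer_sylow P.isPGroup' Q
  rw [inf_eq_left.2 h2] at h4
  have h5 : (P : Subgroup G) ≤ Q := by
    rw [h4]
    exact inf_le_right
  exact Sylow.ext (P.is_maximal' Q.isPGroup' h5).symm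

/-- Let `T ≠ 1` be a 7-subgroup centralizing `P`. Then `T` fixes only `P`. -/
theorem seven_fixed [IsSimpleGroup G] (hn : Nat.card (Sylow 3 G) = 22) (P : Sylow 3 G)
    (T : Subgroup G) (hT : IsPGroup 7 T) (hT1 : T ≠ ⊥)
    (hTP : ∀ t ∈ T, ∀ x ∈ P, t * x = x * t) (Q : Sylow 3 G) (hQ : ∀ t ∈ T, t • Q = Q) : P = Q := by
  classical
  have hf7 : Fact (Nat.Prime 7) := ⟨by norm_num⟩
  by_contra hPQ
  -- the number of fixed points
  have h1 : Nat.card (Sylow 3 G) ≡ Nat.card (fixedPoints T (Sylow 3 G)) [MOD 7] :=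
    hT.card_modEq_card_fixedPoints (Sylow 3 G)
  -- `P` acts on the fixed points of `T`
  let S : SubMulAction (P : Subgroup G) (Sylow 3 G) :=
    { carrier := fixedPoints T (Sylow 3 G)
      smul_mem' := by
        intro x R hR t
        have h2 : (t : G) • R = R := hR t
        show (t : G) • (x : G) • R = (x : G) • R
        rw [← mul_smul, hTP t t.2 x x.2, mul_smul, h2] }
  have h2 : Nat.card S ≡ Nat.card (fixedPoints (P : Subgroup G) S) [MOD 3] :=
    P.isPGroup'.card_modEq_card_fixedPoints S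
  have hPS : P ∈ fixedPoints T (Sylow 3 G) := by
    intro t
    have : (t : G) ∈ normalizer ((P : Subgroup G) : Set G) := by
      rw [mem_normalizer_iff]
      intro x
      constructor
      · intro hx
        rw [hTP t t.2 x hx, mul_inv_cancel_right]
        exact hx
      · intro hx
        have h3 := hTP t t.2 _ hx
        have h4 : (t : G) * x * (t : G)⁻¹ = x := by
          have h5 : (t : G) * ((t : G) * x * (t : G)⁻¹) = (t : G) * x := by
            rw [h3]; group
          exact mul_left_cancel h5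
        rwa [h4] at hx
    exact Sylow.smul_eq_iff_mem_normalizer.2 this
  have h3 : Nat.card (fixedPoints (P : Subgroup G) S) = 1 := by
    rw [Nat.card_eq_one_iff_unique]
    refine ⟨⟨?_⟩, ⟨⟨P, hPS⟩, ?_⟩⟩
    · rintro ⟨⟨R, hR⟩, hR'⟩ ⟨⟨R', hR1⟩, hR1'⟩
      have e1 : P = R := fixed_unique P R (fun x hx => congrArg Subtype.val (hR' ⟨x, hx⟩))
      have e2 : P = R' := fixed_unique P R' (fun x hx => congrArg Subtype.val (hR1' ⟨x, hx⟩))
      subst e1
      subst e2
      rfl
    · intro x
      apply Subtype.ext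
      exact Sylow.smul_eq_iff_mem_normalizer.2 (le_normalizer x.2)
  rw [h3] at h2
  have h4 : Nat.card S = Nat.card (fixedPoints T (Sylow 3 G)) := rfl
  rw [h4] at h2
  rw [hn] at h1
  set f := Nat.card (fixedPoints T (Sylow 3 G)) with hf
  have h5 : f ≤ 22 := by
    rw [← hn, hf]
    exact Nat.card_le_card_of_injective _ Subtype.val_injective
  have h6 : f ≠ 22 := by
    intro h6
    apply hT1
    rw [eq_bot_iff]
    intro t ht
    rw [mem_bot]
    apply eq_one_of_smul hn
    intro R
    have h7 : fixedPoints T (Sylow 3 G) = Set.univ := by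
      rw [Set.eq_univ_iff_ncard, ← Nat.card_coe_set_eq, ← hf, h6, hn]
    have h8 : R ∈ fixedPoints T (Sylow 3 G) := h7 ▸ Set.mem_univ R
    exact h8 ⟨t, ht⟩
  have h7 : 2 ≤ f := by
    have : Nontrivial (fixedPoints T (Sylow 3 G)) :=
      ⟨⟨P, hPS⟩, ⟨Q, fun t => hQ t t.2⟩, fun h => hPQ (congrArg Subtype.val h)⟩
    exact Finite.one_lt_card_iff_nontrivial.2 this
  have h8 : f % 3 = 1 := h2
  have h9 : f % 7 = 1 := h1.symm
  omega

/-- A `7`-element of `K ≤ C(P)` generates its own centralizer in `K`. -/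
theorem mem_of_centralizes [IsSimpleGroup G] (hn : Nat.card (Sylow 3 G) = 22) (P : Sylow 3 G)
    (hP : Nat.card (P : Subgroup G) = 3) (K : Subgroup G)
    (hKP : ∀ k ∈ K, ∀ x ∈ (P : Subgroup G), k * x = x * k) (h3 : ¬ 3 ∣ Nat.card K)
    (T : Subgroup G) (hTK : T ≤ K) (hT : Nat.card T = 7) (c : G) (hc : c ∈ K)
    (hcT : ∀ t ∈ T, t * c = c * t) : c ∈ T := by
  classical
  have hf7 : Fact (Nat.Prime 7) := ⟨by norm_num⟩
  have hnt : Nontrivial (Sylow 3 G) := by
    rw [← Finite.one_lt_card_iff_nontrivial, hn]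
    norm_num
  obtain ⟨Q, hQ⟩ := exists_ne P
  have hT7 : IsPGroup 7 T := IsPGroup.of_card (n := 1) (by rw [hT, pow_one])
  -- elements of `K` fix `P`
  have hKfix : ∀ k ∈ K, k • P = P := by
    intro k hk
    have : k ∈ normalizer ((P : Subgroup G) : Set G) := by
      rw [mem_normalizer_iff]
      intro x
      constructor
      · intro hx
        rw [hKP k hk x hx, mul_inv_cancel_right]
        exact hx
      · intro hx
        have h3 := hKP k hk _ hx
        have h4 : k * x * k⁻¹ = x := by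
          have h5 : k * (k * x * k⁻¹) = k * x := by
            rw [h3]; group
          exact mul_left_cancel h5
        rwa [h4] at hx
    exact Sylow.smul_eq_iff_mem_normalizer.2 this
  have hPfix : ∀ x ∈ (P : Subgroup G), x • P = P := fun x hx =>
    Sylow.smul_eq_iff_mem_normalizer.2 (le_normalizer hx)
  have hP3 : ∀ x ∈ (P : Subgroup G), x ^ 3 = 1 := by
    intro x hx
    have h := pow_card_eq_one' (x := (⟨x, hx⟩ : (P : Subgroup G)))
    rw [hP] at h
    exact congrArg Subtype.val h
  have hTpow : ∀ t ∈ T, t ^ 7 = 1 := by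
    intro t ht
    have h := pow_card_eq_one' (x := (⟨t, ht⟩ : T))
    rw [hT] at h
    exact congrArg Subtype.val h
  -- semiregularity of `PT`
  have hsemi : ∀ x ∈ (P : Subgroup G), ∀ t ∈ T, (x * t) • Q = Q → x = 1 ∧ t = 1 := by
    intro x hx t ht h
    have hcomm : Commute x t := (hKP t (hTK ht) x hx).symm
    have hx1 : x = 1 := by
      by_contra hx1
      have h1 : (x * t) ^ 7 = x := by
        rw [hcomm.mul_pow, hTpow t ht, mul_one, show 7 = 3 * 2 + 1 from rfl, pow_add, pow_mul,
          hP3 x hx, one_pow, one_mul, pow_one]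
      have h2 : (x * t) ^ 7 • Q = Q := by
        have h4 : x * t ∈ stabilizer G Q := h
        exact (stabilizer G Q).pow_mem h4 7
      rw [h1] at h2
      exact hQ (eq_of_smul_eq P hP hx hx1 Q h2).symm
    subst hx1
    rw [one_mul] at h
    refine ⟨rfl, ?_⟩
    by_contra ht1
    have h1 : zpowers t = T := by
      apply eq_of_le_of_card_ge (zpowers_le.2 ht)
      rw [hT, Nat.card_zpowers]
      have h4 : orderOf t ∣ 7 := orderOf_dvd_of_pow_eq_one (hTpow t ht)
      rcases (Nat.dvd_prime (by norm_num : Nat.Prime 7)).1 h4 with h5 | h5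
      · exact absurd (orderOf_eq_one_iff.1 h5) ht1
      · exact h5.ge
    have h2 : ∀ s ∈ T, s • Q = Q := by
      intro s hs
      rw [← h1] at hs
      have h5 : zpowers t ≤ stabilizer G Q := zpowers_le.2 h
      exact h5 hs
    have hT1 : T ≠ ⊥ := by
      rintro rfl
      simp at hT
    exact hQ (seven_fixed hn P T hT7 hT1 (fun s hs x hx => hKP s (hTK hs) x hx) Q h2).symm
  -- the regular action of `PT` on the points different from `P`
  have hne : ∀ g : G, g • P = P → g • Q ≠ P := by
    intro g hg h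
    rw [← hg] at h
    exact hQ (smul_left_cancel g h)
  let f : ↥(P : Subgroup G) × ↥T → {R : Sylow 3 G // R ≠ P} := fun a =>
    ⟨((a.1 : G) * (a.2 : G)) • Q, hne _ (by
      rw [mul_smul, hKfix _ (hTK a.2.2), hPfix _ a.1.2])⟩
  have hf : Function.Injective f := by
    rintro ⟨x, t⟩ ⟨x', t'⟩ h
    have h1 : ((x : G) * t) • Q = ((x' : G) * t') • Q := congrArg Subtype.val h
    have hcomm : (t' : G)⁻¹ * ((x' : G)⁻¹ * x) = ((x' : G)⁻¹ * x) * (t' : G)⁻¹ :=
      hKP _ (hTK (T.inv_mem t'.2)) _ ((P : Subgroup G).mul_mem ((P : Subgroup G).inv_mem x'.2) x.2)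
    have h2 : (((x' : G)⁻¹ * x) * ((t' : G)⁻¹ * t)) • Q = Q := by
      have h3 : ((x' : G)⁻¹ * x) * ((t' : G)⁻¹ * t) = ((x' : G) * t')⁻¹ * ((x : G) * t) := by
        rw [← mul_assoc, ← hcomm]
        group
      rw [h3, mul_smul, h1, inv_smul_smul]
    obtain ⟨e1, e2⟩ := hsemi _ ((P : Subgroup G).mul_mem ((P : Subgroup G).inv_mem x'.2) x.2) _
      (T.mul_mem (T.inv_mem t'.2) t.2) h2
    have e1' : x = x' := Subtype.ext (inv_mul_eq_one.1 e1).symm
    have e2' : t = t' := Subtype.ext (inv_mul_eq_one.1 e2).symm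
    rw [e1', e2']
  have hfb : Function.Bijective f := by
    apply hf.bijective_of_nat_card_le
    have hfin : Fintype (Sylow 3 G) := Fintype.ofFinite _
    rw [Nat.card_prod, hP, hT, Nat.card_eq_fintype_card, Fintype.card_subtype_compl,
      Fintype.card_subtype_eq, ← Nat.card_eq_fintype_card, hn]
  obtain ⟨⟨x, t⟩, hxt⟩ := hfb.2 ⟨c • Q, hne c (hKfix c hc)⟩
  have hxt' : ((x : G) * t) • Q = c • Q := congrArg Subtype.val hxt
  set d := ((x : G) * t)⁻¹ * c with hd
  have hdQ : d • Q = Q := by
    rw [hd, mul_smul, ← hxt', inv_smul_smul]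
  have hdcomm : ∀ y ∈ (P : Subgroup G), ∀ s ∈ T, d * (y * s) = (y * s) * d := by
    intro y hy s hs
    have hxy : (x : G) * y = y * x := by
      have hcyc : IsCyclic (P : Subgroup G) := isCyclic_of_prime_card hP
      obtain ⟨g, hg⟩ := hcyc.exists_generator
      obtain ⟨a, ha⟩ := hg x
      obtain ⟨b, hb⟩ := hg ⟨y, hy⟩
      have h5 : x * ⟨y, hy⟩ = ⟨y, hy⟩ * x := by
        rw [← ha, ← hb]
        exact (Commute.refl g).zpow_zpow a b
      exact congrArg Subtype.val h5
    have hts : (t : G) * s = s * t := by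
      have hcyc : IsCyclic T := isCyclic_of_prime_card hT
      obtain ⟨g, hg⟩ := hcyc.exists_generator
      obtain ⟨a, ha⟩ := hg t
      obtain ⟨b, hb⟩ := hg ⟨s, hs⟩
      have h5 : t * ⟨s, hs⟩ = ⟨s, hs⟩ * t := by
        rw [← ha, ← hb]
        exact (Commute.refl g).zpow_zpow a b
      exact congrArg Subtype.val h5
    have c1 : Commute (x : G) y := hxy
    have c2 : Commute (t : G) s := hts
    have c3 : Commute (t : G) y := hKP t (hTK t.2) y hy
    have c4 : Commute s (x : G) := hKP s (hTK hs) x x.2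
    have c5 : Commute c y := hKP c hc y hy
    have c6 : Commute s c := hcT s hs
    have c7 : Commute ((x : G) * t) (y * s) :=
      (c1.mul_left c3).mul_right (c4.symm.mul_left c2)
    have c8 : Commute c (y * s) := c5.mul_right c6.symm
    exact (c7.inv_left.mul_left c8)
  have hd1 : d = 1 := by
    apply eq_one_of_smul hn
    intro R
    by_cases hR : R = P
    · subst hR
      rw [hd, mul_smul, hKfix c hc, inv_smul_eq_iff, mul_smul, hKfix _ (hTK t.2), hPfix _ x.2]
    · obtain ⟨⟨y, s⟩, hys⟩ := hfb.2 ⟨R, hR⟩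
      have hys' : ((y : G) * s) • Q = R := congrArg Subtype.val hys
      rw [← hys', ← mul_smul, hdcomm y y.2 s s.2, mul_smul, hdQ]
  have hcxt : (x : G) * t = c := inv_mul_eq_one.1 hd1
  have hxK : (x : G) ∈ K := by
    have h5 : (x : G) = c * (t : G)⁻¹ := by rw [← hcxt]; group
    rw [h5]
    exact K.mul_mem hc (K.inv_mem (hTK t.2))
  have hx1 : (x : G) = 1 := by
    have h5 : orderOf (x : G) ∣ 3 := orderOf_dvd_of_pow_eq_one (hP3 x x.2)
    rcases (Nat.dvd_prime (by norm_num : Nat.Prime 3)).1 h5 with h6 | h6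
    · exact orderOf_eq_one_iff.1 h6
    · exfalso
      apply h3
      have h7 := orderOf_dvd_natCard (⟨x, hxK⟩ : K)
      rwa [Subgroup.orderOf_mk, h6] at h7
  rw [← hcxt, hx1, one_mul]
  exact t.2

/-- The main arithmetic. -/
theorem false_of_simple [IsSimpleGroup G] (hG : ¬ IsMulCommutative G)
    (hn : Nat.card (Sylow 3 G) = 22) : False := by
  classical
  have hf7 : Fact (Nat.Prime 7) := ⟨by norm_num⟩
  have hf11 : Fact (Nat.Prime 11) := ⟨by norm_num⟩
  obtain ⟨P⟩ : Nonempty (Sylow 3 G) := inferInstance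
  have hP : Nat.card (P : Subgroup G) = 3 := card_eq_three hG hn P
  have hall : ∀ R : Sylow 3 G, Nat.card (R : Subgroup G) = 3 := card_eq_three hG hn
  have hdvd := dvd_card hn
  have h3 : 3 ∣ Nat.card G := (by norm_num : 3 ∣ 22 * 21).trans hdvd
  have h9 : ¬ 3 ^ 2 ∣ Nat.card G := by
    intro h
    have h1 := P.card_eq_multiplicity
    have h2 : 2 ≤ (Nat.card G).factorization 3 :=
      ((by norm_num : Nat.Prime 3).pow_dvd_iff_le_factorization Nat.card_pos.ne').1 h
    have h4 : 3 ^ 2 ≤ 3 ^ (Nat.card G).factorization 3 := Nat.pow_le_pow_right (by norm_num) h2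
    have h5 : Nat.card P = 3 := hP
    rw [h1] at h5
    omega
  obtain ⟨e, K, hK⟩ := exists_local hG h3 h9 P
  have he : e = 2 := by
    have h1 := hK.dvd_pred
    have h2 := hK.one_lt
    have h4 : e ≤ 2 := Nat.le_of_dvd (by norm_num) h1
    omega
  subst he
  have hcard : Nat.card G = 132 * Nat.card K := by
    rw [hK.card_eq, hn]
    ring
  -- `2 |K| ∣ 7!`
  have hK7 : 2 * Nat.card K ∣ 5040 := by
    obtain ⟨o, ho1, ho2⟩ := hK.card_sylow hG (by norm_num) hP
    rw [hn] at ho1
    have ho : o = 7 := by omega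
    subst ho
    rcases ho2 with h | ⟨h, -⟩
    · exact h
    · omega
  have hK7' : 7 ∣ Nat.card K := by
    rw [hcard] at hdvd
    omega
  obtain ⟨m, hm⟩ := hK7'
  have hm3 : ¬ 3 ∣ m := by
    intro h
    exact hK.not_dvd (hm ▸ h.mul_left 7)
  have hm40 : m ∣ 40 := by
    rw [hm] at hK7
    have h1 : m ∣ 360 := by
      obtain ⟨c, hc⟩ := hK7
      exact ⟨c, by nlinarith⟩
    have h2 : m ∣ 9 * 40 := h1
    have h4 : Nat.Coprime m 9 := by
      have : Nat.Coprime m (3 ^ 2) := by
        apply Nat.Coprime.pow_right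
        rw [Nat.coprime_comm]
        exact (Nat.Prime.coprime_iff_not_dvd (by norm_num)).2 hm3
      exact this
    exact h4.dvd_of_dvd_mul_left h2
  have hKP : ∀ k ∈ K, ∀ x ∈ (P : Subgroup G), k * x = x * k := hK.comm
  have hm128 : m = 1 ∨ m = 2 ∨ m = 8 := by
    obtain ⟨T₀⟩ : Nonempty (Sylow 7 K) := inferInstance
    have hm7 : ¬ 7 ∣ m := fun h => by
      have := h.trans hm40
      norm_num at this
    have hT₀ : Nat.card T₀ = 7 := by
      apply card_of_not_sq_dvd (hm ▸ dvd_mul_right 7 m)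
      intro h
      rw [hm] at h
      exact hm7 ((Nat.mul_dvd_mul_iff_left (by norm_num : 0 < 7)).1 (by rwa [pow_two] at h))
    have hC : centralizer ((T₀ : Subgroup K) : Set K) = (T₀ : Subgroup K) := by
      apply le_antisymm
      · intro c hc
        have h1 := mem_of_centralizes hn P hP K hKP hK.not_dvd ((T₀ : Subgroup K).map K.subtype)
          (map_subtype_le _) (by
            rw [card_map_of_injective K.subtype_injective]
            exact hT₀) (c : G) c.2 (by
            rintro _ ⟨t, ht, rfl⟩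
            have h2 := mem_centralizer_iff.1 hc t ht
            exact congrArg Subtype.val h2)
        obtain ⟨t, ht, htc⟩ := h1
        have h3 : t = c := Subtype.ext htc
        exact h3 ▸ ht
      · intro c hc
        have hcyc : IsCyclic (T₀ : Subgroup K) := isCyclic_of_prime_card hT₀
        rw [mem_centralizer_iff]
        intro t ht
        obtain ⟨g, hg⟩ := hcyc.exists_generator
        obtain ⟨a, ha⟩ := hg ⟨c, hc⟩
        obtain ⟨b, hb⟩ := hg ⟨t, ht⟩
        have h5 : (⟨t, ht⟩ : (T₀ : Subgroup K)) * ⟨c, hc⟩ = ⟨c, hc⟩ * ⟨t, ht⟩ := by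
          rw [← ha, ← hb]
          exact (Commute.refl g).zpow_zpow b a
        exact congrArg Subtype.val h5
    obtain ⟨d, hd, hd'⟩ := WeakTI.SylCent.exists_factor T₀ hT₀
    have hn7 : Nat.card (Sylow 7 K) ≡ 1 [MOD 7] := card_sylow_modEq_one 7 K
    have hC7 : Nat.card (centralizer ((T₀ : Subgroup K) : Set K)) = 7 := by
      rw [hC]
      exact hT₀
    rw [hC7, hm] at hd'
    set n := Nat.card (Sylow 7 K) with hndef
    have hnd : n * d = m := by nlinarith
    have hd6 : d ∈ Nat.divisors 6 := Nat.mem_divisors.2 ⟨hd, by norm_num⟩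
    have hm40' : m ∈ Nat.divisors 40 := Nat.mem_divisors.2 ⟨hm40, by norm_num⟩
    have e6 : Nat.divisors 6 = {1, 2, 3, 6} := by decide
    have e40 : Nat.divisors 40 = {1, 2, 4, 5, 8, 10, 20, 40} := by decide
    rw [e6] at hd6
    rw [e40] at hm40'
    simp only [Finset.mem_insert, Finset.mem_singleton] at hd6 hm40'
    have hn7' : n % 7 = 1 := hn7
    rcases hd6 with rfl | rfl | rfl | rfl <;>
      rcases hm40' with rfl | rfl | rfl | rfl | rfl | rfl | rfl | rfl <;> omega
  -- the prime 11
  have h11 : 11 ∣ Nat.card G := (by norm_num : 11 ∣ 22 * 21).trans hdvd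
  have hGm : Nat.card G = 924 * m := by
    rw [hcard, hm]
    ring
  have h121 : ¬ 11 ^ 2 ∣ Nat.card G := by
    rw [hGm]
    rcases hm128 with rfl | rfl | rfl <;> norm_num
  obtain ⟨R⟩ : Nonempty (Sylow 11 G) := inferInstance
  obtain ⟨e, L, hL⟩ := exists_local hG h11 h121 R
  have hR : Nat.card R = 11 := card_of_not_sq_dvd h11 h121 R
  obtain ⟨o, ho1, ho2⟩ := hL.card_sylow hG (by norm_num) hR
  have hcardG := hL.card_eq
  -- `3 ∤ |L|`
  have hL3 : ¬ 3 ∣ Nat.card L := by
    intro h
    obtain ⟨y, hy⟩ := exists_prime_orderOf_dvd_card' 3 h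
    have hyG : orderOf (y : G) = 3 := by
      rw [Subgroup.orderOf_coe]
      exact hy
    have hz : IsPGroup 3 (zpowers (y : G)) := by
      apply IsPGroup.of_card (n := 1)
      rw [Nat.card_zpowers, hyG, pow_one]
    obtain ⟨P', hP'⟩ := hz.exists_le_sylow
    have hP'eq : zpowers (y : G) = (P' : Subgroup G) := by
      apply eq_of_le_of_card_ge hP'
      rw [hall P', Nat.card_zpowers, hyG]
    -- `|C(P')| = 3 |K|`
    have hcard2 : Nat.card (centralizer ((P' : Subgroup G) : Set G)) = 3 * Nat.card K := by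
      obtain ⟨g, rfl⟩ := exists_smul_eq G P P'
      rw [← hK.card_centralizer]
      have h5 : centralizer (((g • P : Sylow 3 G) : Subgroup G) : Set G) =
          (centralizer ((P : Subgroup G) : Set G)).map (MulAut.conj g).toMonoidHom := by
        ext z
        rw [Sylow.coe_subgroup_smul, mem_centralizer_iff]
        constructor
        · intro hz
          refine ⟨g⁻¹ * z * g, ?_, by simp [mul_assoc]⟩
          show _ ∈ centralizer ((P : Subgroup G) : Set G)
          rw [mem_centralizer_iff]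
          intro w hw
          have h6 := hz (g * w * g⁻¹) (by
            rw [SetLike.mem_coe, Subgroup.mem_smul_pointwise_iff_exists]
            exact ⟨w, hw, rfl⟩)
          have h7 : w * (g⁻¹ * z * g) = g⁻¹ * ((g * w * g⁻¹) * z) * g := by group
          rw [h7, h6]
          group
        · rintro ⟨w, hw, rfl⟩ v hv
          rw [SetLike.mem_coe, Subgroup.mem_smul_pointwise_iff_exists] at hv
          obtain ⟨u, hu, rfl⟩ := hv
          have hw' : w ∈ centralizer ((P : Subgroup G) : Set G) := hw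
          have h8 := mem_centralizer_iff.1 hw' u hu
          show (g * u * g⁻¹) * (g * w * g⁻¹) = (g * w * g⁻¹) * (g * u * g⁻¹)
          have h9 : (g * u * g⁻¹) * (g * w * g⁻¹) = g * (u * w) * g⁻¹ := by group
          rw [h9, h8]
          group
      rw [h5, card_map_of_injective (MulAut.conj g).injective]
      rfl
    -- `R ≤ C(P')`
    have hRle : (R : Subgroup G) ≤ centralizer ((P' : Subgroup G) : Set G) := by
      intro r hr
      rw [mem_centralizer_iff]
      intro w hw
      rw [← hP'eq] at hw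
      obtain ⟨i, rfl⟩ := hw
      have h6 : (y : G) * r = r * y := hL.comm y y.2 r hr
      exact ((Commute.zpow_left (show Commute (y : G) r from h6) i)).eq
    have h12 := card_dvd_of_le hRle
    rw [hcard2, hm] at h12
    have hR' : Nat.card (R : Subgroup G) = 11 := hR
    rw [hR'] at h12
    rcases hm128 with rfl | rfl | rfl <;> norm_num at h12
  rw [hGm] at hcardG
  have he1 := hL.one_lt
  have he2 : e ∈ Nat.divisors 10 := Nat.mem_divisors.2 ⟨hL.dvd_pred, by norm_num⟩
  have e10 : Nat.divisors 10 = {1, 2, 5, 10} := by decide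
  rw [e10] at he2
  simp only [Finset.mem_insert, Finset.mem_singleton] at he2
  set l := Nat.card L with hl
  have hl0 : 0 < l := Nat.card_pos
  rw [ho1] at hcardG
  have hkey : (1 + 11 * o) * (e * l) = 84 * m := by nlinarith
  have he5 : e = 2 := by
    rcases he2 with rfl | rfl | rfl | rfl
    · omega
    · rfl
    · exfalso
      have h5 : 5 ∣ 84 * m := ⟨(1 + 11 * o) * l, by rw [← hkey]; ring⟩
      rcases hm128 with rfl | rfl | rfl <;> norm_num at h5
    · exfalso
      have h5 : 5 ∣ 84 * m := ⟨(1 + 11 * o) * (2 * l), by rw [← hkey]; ring⟩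
      rcases hm128 with rfl | rfl | rfl <;> norm_num at h5
  subst he5
  have hkey2 : (1 + 11 * o) * l = 42 * m := by nlinarith
  have ho0 : o ≠ 0 := by
    rintro rfl
    rcases ho2 with h | ⟨h, -⟩
    · have := Nat.le_of_dvd (by norm_num) h
      simp at this
      omega
    · omega
  have hob : o ≤ 30 := by
    have h1 : 1 + 11 * o ≤ 42 * m := by nlinarith
    rcases hm128 with rfl | rfl | rfl <;> omega
  have hlb : l ≤ 28 := by
    have h1 : 12 * l ≤ 42 * m := by
      have : 12 ≤ 1 + 11 * o := by omega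
      nlinarith
    rcases hm128 with rfl | rfl | rfl <;> omega
  have ho1' : o ≠ 1 := by
    rintro rfl
    rcases ho2 with h | ⟨-, h⟩
    · have := Nat.le_of_dvd (by norm_num) h
      simp at this
      omega
    · rw [h] at hkey2
      rcases hm128 with rfl | rfl | rfl <;> omega
  rcases hm128 with rfl | rfl | rfl
  · interval_cases o <;> omega
  · interval_cases o <;> omega
  · interval_cases o <;> omega

end Cfsg.Agent.H571.TwentyTwo
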